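import Cfsg.Agent.Lib.Spor.Fi23.Defs

set_option autoImplicit false
set_option maxRecDepth 100000
set_option Elab.async false
set_option exponentiation.threshold 100000

namespace Cfsg.Agent.Spor.Fi23
open Cfsg.Agent.PG

theorem cl8_0_0 : chkOn A 15 0 8 (cl8_l) = true := by decide +kernel

theorem cl8_0_8 : chkOn A 15 8 7 (cl8_l) = true := by decide +kernel

theorem ok8 : plainOK A 9 10 3511 tr8 ce8 = true := by decide +kernel

theorem orb8 : orbCardB A 12 9 3511 2 2 = true := by decide +kernel

theorem cl7_0_0 : chkOn A 15 0 8 (cl7_l) = true := by decide +kernel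

theorem cl7_0_8 : chkOn A 15 8 7 (cl7_l) = true := by decide +kernel

theorem ok7 : plainOK A 7 9 2931 tr7 ce7 = true := by decide +kernel

theorem orb7 : orbCardB A 12 7 2931 2 4 = true := by decide +kernel

theorem cl6_0_0 : chkOn A 15 0 8 (cl6_l) = true := by decide +kernel

theorem cl6_0_8 : chkOn A 15 8 7 (cl6_l) = true := by decide +kernel

theorem ok6 : plainOK A 6 7 2290 tr6 ce6 = true := by decide +kernel

theorem orb6 : orbCardB A 12 6 2290 3 6 = true := by decide +kernel

theorem cl5_0_0 : chkOn A 15 0 8 ((cl5_l).take 24) = true := by decide +kernel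

theorem cl5_0_8 : chkOn A 15 8 7 ((cl5_l).take 24) = true := by decide +kernel

theorem cl5_1_0 : chkOn A 15 0 8 ((cl5_l).drop 24) = true := by decide +kernel

theorem cl5_1_8 : chkOn A 15 8 7 ((cl5_l).drop 24) = true := by decide +kernel

theorem ok5 : dcOK A 5 7 1863 2290 3 cj5 reps5 = true := by decide +kernel

theorem orb5 : orbCardB A 12 5 1863 4 16 = true := by decide +kernel

theorem cl4_0_0 : chkOn A 15 0 8 ((cl4_l).take 20) = true := by decide +kernel

theorem cl4_0_8 : chkOn A 15 8 7 ((cl4_l).take 20) = true := by decide +kernel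

theorem cl4_1_0 : chkOn A 15 0 8 ((cl4_l).drop 20) = true := by decide +kernel

theorem cl4_1_8 : chkOn A 15 8 7 ((cl4_l).drop 20) = true := by decide +kernel

theorem ok4 : dcOK A 4 6 309 1863 4 cj4 reps4 = true := by decide +kernel

theorem orb4 : orbCardB A 12 4 309 4 30 = true := by decide +kernel

theorem cl3_0_0 : chkOn A 15 0 8 ((cl3_l).take 20) = true := by decide +kernel

theorem cl3_0_8 : chkOn A 15 8 7 ((cl3_l).take 20) = true := by decide +kernel

theorem cl3_1_0 : chkOn A 15 0 8 (((cl3_l).drop 20).take 7) = true := by decide +kernel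

theorem cl3_1_8 : chkOn A 15 8 7 (((cl3_l).drop 20).take 7) = true := by decide +kernel

theorem cl3_2_0 : chkOn A 15 0 8 ((((cl3_l).drop 20).drop 7).take 6) = true := by decide +kernel

theorem cl3_2_8 : chkOn A 15 8 7 ((((cl3_l).drop 20).drop 7).take 6) = true := by decide +kernel

theorem cl3_3_0 : chkOn A 15 0 8 ((((cl3_l).drop 20).drop 7).drop 6) = true := by decide +kernel

theorem cl3_3_8 : chkOn A 15 8 7 ((((cl3_l).drop 20).drop 7).drop 6) = true := by decide +kernel


end Cfsg.Agent.Spor.Fi23
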