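import Cfsg.Agent.Lib.Spor.Fi23.Defs

set_option autoImplicit false
set_option maxRecDepth 100000
set_option Elab.async false
set_option exponentiation.threshold 100000

namespace Cfsg.Agent.Spor.Fi23
open Cfsg.Agent.PG

theorem ok3 : dcOK A 3 5 226 309 4 cj3 reps3 = true := by decide +kernel

theorem orb3 : orbCardB A 12 3 226 5 567 = true := by decide +kernel

theorem cl2_0_0 : chkOn A 15 0 8 ((cl2_l).take 18) = true := by decide +kernel

theorem cl2_0_8 : chkOn A 15 8 7 ((cl2_l).take 18) = true := by decide +kernel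

theorem cl2_1_0 : chkOn A 15 0 8 (((cl2_l).drop 18).take 6) = true := by decide +kernel

theorem cl2_1_8 : chkOn A 15 8 7 (((cl2_l).drop 18).take 6) = true := by decide +kernel

theorem cl2_2_0 : chkOn A 15 0 8 ((((cl2_l).drop 18).drop 6).take 5) = true := by decide +kernel

theorem cl2_2_8 : chkOn A 15 8 7 ((((cl2_l).drop 18).drop 6).take 5) = true := by decide +kernel

theorem cl2_3_0 : chkOn A 15 0 8 (((((cl2_l).drop 18).drop 6).drop 5).take 5) = true := by decide +kernel

theorem cl2_3_8 : chkOn A 15 8 7 (((((cl2_l).drop 18).drop 6).drop 5).take 5) = true := by decide +kernel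

theorem cl2_4_0 : chkOn A 15 0 8 (((((cl2_l).drop 18).drop 6).drop 5).drop 5) = true := by decide +kernel

theorem cl2_4_8 : chkOn A 15 8 7 (((((cl2_l).drop 18).drop 6).drop 5).drop 5) = true := by decide +kernel

theorem ok2 : dcOK A 2 4 58 226 5 cj2 reps2 = true := by decide +kernel

theorem orb2 : orbCardB A 12 2 58 5 2816 = true := by decide +kernel

theorem cl1_0_0 : chkOn A 15 0 8 ((cl1_l).take 16) = true := by decide +kernel

theorem cl1_0_8 : chkOn A 15 8 7 ((cl1_l).take 16) = true := by decide +kernel

theorem cl1_1_0 : chkOn A 15 0 8 (((cl1_l).drop 16).take 6) = true := by decide +kernel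

theorem cl1_1_8 : chkOn A 15 8 7 (((cl1_l).drop 16).take 6) = true := by decide +kernel

theorem cl1_2_0 : chkOn A 15 0 8 ((((cl1_l).drop 16).drop 6).take 4) = true := by decide +kernel

theorem cl1_2_8 : chkOn A 15 8 7 ((((cl1_l).drop 16).drop 6).take 4) = true := by decide +kernel

theorem cl1_3_0 : chkOn A 15 0 8 ((((cl1_l).drop 16).drop 6).drop 4) = true := by decide +kernel

theorem cl1_3_8 : chkOn A 15 8 7 ((((cl1_l).drop 16).drop 6).drop 4) = true := by decide +kernel

theorem ok1 : dcOK A 1 3 637 58 5 cj1 reps1 = true := by decide +kernel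

theorem orb1 : orbCardB A 12 1 637 5 3510 = true := by decide +kernel

theorem cl0_0_0 : chkOn A 15 0 8 ((cl0_l).take 7) = true := by decide +kernel


end Cfsg.Agent.Spor.Fi23
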