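import Cfsg.Agent.Lib.Spor.Fi23.Data
import Cfsg.Agent.Lib.Spor.Fi22.Main

set_option autoImplicit false
set_option maxRecDepth 100000
set_option Elab.async false
set_option exponentiation.threshold 100000

namespace Cfsg.Agent.Spor.Fi23L
open Cfsg.Agent.PG Cfsg.Agent.Spor

def act1_ws : List ℕ := [0x10e10090a080608060b090708040a040a090207030806,
  0x10e10090a080609060a08070a040604070d02080b0903,
  0x10e100d100b08080e080609060a0907090404060c0407040202080602,
  0x1100d100a100906090a0806080b040406040e10,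
  0x10b080a080807090a0806040406041006,
  0x10c0c0b080a080d07080a08060806040406090c,
  0x10d100a0c0a08080e0708060b080604040a1008,
  0x10e100c0a10080b0608070b0806080404070e08,
  0x10e0c100a0c0a080a0c0709070a090b0408050d,
  0x10e100d100b0b080a08080c06080a090406050a,
  0x10e100c100a100d080a08080709060a080608040a04070b,
  0x10e0c0c0a0a0c080c0907080a04070c0507]

theorem act1_ag_0 : allL (((agList 0 12 15)).take 48) (Ag Fi23.A Fi22.A 15 (ivl 0 3510) 1 act1_ws 0) = true := by decide +kernel

theorem act1_ag_1 : allL ((((agList 0 12 15)).drop 48).take 62) (Ag Fi23.A Fi22.A 15 (ivl 0 3510) 1 act1_ws 0) = true := by decide +kernel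

theorem act1_ag_2 : allL (((((agList 0 12 15)).drop 48).drop 62).take 57) (Ag Fi23.A Fi22.A 15 (ivl 0 3510) 1 act1_ws 0) = true := by decide +kernel

theorem act1_ag_3 : allL (((((agList 0 12 15)).drop 48).drop 62).drop 57) (Ag Fi23.A Fi22.A 15 (ivl 0 3510) 1 act1_ws 0) = true := by decide +kernel

theorem act1_ag : ∀ c ∈ agList 0 12 15, (Ag Fi23.A Fi22.A 15 (ivl 0 3510) 1 act1_ws 0) c = true :=
  (forall_take_drop 48 (allL_spec act1_ag_0)
  (forall_take_drop 62 (allL_spec act1_ag_1)
  (forall_take_drop 57 (allL_spec act1_ag_2)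
  (allL_spec act1_ag_3))))

theorem act1_inv : invB Fi22.A (kgens Fi22.A 0) (ivl 0 3510) = true := by decide +kernel

theorem act1 : ∀ j, 0 ≤ j → j < Fi22.A.length → Acts (fun i => wp Fi23.A 1 i) (bset (ivl 0 3510))
    (wp Fi23.A (nthD 1 act1_ws (j - 0))) (gp Fi22.A j) :=
  acts_of_Ag Fi23.hA Fi22.hA (by norm_num) (by rw [Fi22.hlen]; norm_num) act1_inv (by rw [Fi22.hlen]; exact act1_ag)

theorem self0 : selfB Fi22.A 0 (kgens Fi22.A 1) 0 5 [1, 6] (ivl 0 3510) = true := by decide +kernel

theorem cov0 : coverB Fi22.A (kgens Fi22.A 0) 6 [0] (ivl 0 3510) = true := by decide +kernel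


end Cfsg.Agent.Spor.Fi23L
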